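import Cfsg.Agent.Suzuki.BinLie

/-!
# Binary actions and involutions: general facts
-/

set_option autoImplicit false

namespace Cfsg.Agent.BinInv

open MulAction
open Cfsg.Agent.Suz (Bin ncard_fixedBy_conj)

section general

variable {G X : Type*} [Group G] [MulAction G X]

/-- stabilisers in binary actions contain the centralising involutions -/
theorem invol [Finite G] [Finite X]
    (hone : ∀ s s' : G, s ≠ 1 → s * s = 1 → s' ≠ 1 → s' * s' = 1 → ∃ c : G, c * s * c⁻¹ = s')
    (hB : Bin G X) {x : X} {t z : G}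
    (ht1 : t ≠ 1) (htt : t * t = 1) (hz1 : z ≠ 1) (hzz : z * z = 1) (hcomm : t * z = z * t)
    (htx : t • x = x) : z • x = x := by
  by_contra hzx
  have hfix : ∀ s s' : G, s ≠ 1 → s * s = 1 → s' ≠ 1 → s' * s' = 1 →
      (fixedBy X s).ncard = (fixedBy X s').ncard := by
    intro s s' hs1 hss hs1' hss'
    obtain ⟨c, hc⟩ := hone s s' hs1 hss hs1' hss'
    have h1 := ncard_fixedBy_conj (X := X) c s
    rw [hc] at h1
    exact h1.symm
  have hzt1 : z * t ≠ 1 := by
    intro h
    apply hzx
    have : z = t := by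
      rw [mul_eq_one_iff_eq_inv] at h
      rw [h]; exact inv_eq_of_mul_eq_one_left htt
    rw [this, htx]
  have hztt : z * t * (z * t) = 1 := by
    calc z * t * (z * t) = z * (t * z) * t := by group
      _ = (z * z) * (t * t) := by rw [hcomm]; group
      _ = 1 := by rw [hzz, htt, one_mul]
  -- the tuple
  let Λ : Set X := fixedBy X t ∪ (fixedBy X z ∪ fixedBy X (z * t))
  classical
  let J : Λ → X := fun p => if t • p.1 = p.1 then z • p.1 else p.1
  have hzxt : t • z • x = z • x := by rw [← mul_smul, hcomm, mul_smul, htx]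
  have hcard : 2 ≤ Nat.card Λ := by
    have : Nontrivial Λ := ⟨⟨x, Or.inl htx⟩, ⟨z • x, Or.inl hzxt⟩,
      fun h => hzx (congrArg Subtype.val h).symm⟩
    exact Finite.one_lt_card
  obtain ⟨s, hs⟩ := hB.fintype (ι := Λ) hcard (fun p => p.1) J (by
    have case : ∀ p q : Λ, t • p.1 = p.1 → ¬ t • q.1 = q.1 →
        ∃ g : G, g • p.1 = J p ∧ g • q.1 = J q := by
      intro p q hp hq
      have hJp : J p = z • p.1 := if_pos hp
      have hJq : J q = q.1 := if_neg hq
      rw [hJp, hJq]
      rcases q.2 with h | h | h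
      · exact absurd h hq
      · exact ⟨z, rfl, h⟩
      · exact ⟨z * t, by rw [mul_smul, hp], h⟩
    intro p q _
    by_cases hp : t • p.1 = p.1
    · by_cases hq : t • q.1 = q.1
      · refine ⟨z, ?_, ?_⟩
        · exact (if_pos hp).symm
        · exact (if_pos hq).symm
      · exact case p q hp hq
    · by_cases hq : t • q.1 = q.1
      · obtain ⟨g, h1, h2⟩ := case q p hq hp
        exact ⟨g, h2, h1⟩
      · refine ⟨1, ?_, ?_⟩
        · rw [one_smul]; exact (if_neg hp).symm
        · rw [one_smul]; exact (if_neg hq).symm)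
  have hst : ∀ p : X, t • p = p → s • p = z • p := by
    intro p hp
    rw [hs ⟨p, Or.inl hp⟩]
    exact if_pos hp
  have hsz : ∀ p : X, z • p = p → s • p = p := by
    intro p hp
    by_cases h : t • p = p
    · rw [hst p h, hp]
    · rw [hs ⟨p, Or.inr (Or.inl hp)⟩]
      exact if_neg h
  have hszt : ∀ p : X, (z * t) • p = p → s • p = p := by
    intro p hp
    by_cases h : t • p = p
    · rw [mul_smul, h] at hp
      rw [hst p h, hp]
    · rw [hs ⟨p, Or.inr (Or.inr hp)⟩]
      exact if_neg h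
  -- powers of s
  have hpow : ∀ (n : ℕ) (p : X), s • p = p → s ^ n • p = p := by
    intro n p hp
    induction n with
    | zero => rw [pow_zero, one_smul]
    | succ n ih => rw [pow_succ, mul_smul, hp, ih]
  have hss : ∀ p : X, t • p = p → (s * s) • p = p := by
    intro p hp
    have h1 : t • z • p = z • p := by rw [← mul_smul, hcomm, mul_smul, hp]
    rw [mul_smul, hst p hp, hst _ h1, ← mul_smul, hzz, one_smul]
  have heven : 2 ∣ orderOf s := by
    by_contra hodd
    apply hzx
    have hcop : (orderOf s).Coprime 2 :=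
      ((Nat.Prime.coprime_iff_not_dvd Nat.prime_two).2 hodd).symm
    obtain ⟨k, hk⟩ := exists_pow_eq_self_of_coprime hcop.symm
    have h1 : s • x = x := by
      rw [← hk, pow_two]
      have : ∀ n : ℕ, (s * s) ^ n • x = x := by
        intro n
        induction n with
        | zero => rw [pow_zero, one_smul]
        | succ n ih => rw [pow_succ, mul_smul, hss x htx, ih]
      exact this k
    rw [← hst x htx, h1]
  obtain ⟨l, hl⟩ := heven
  have hl0 : 0 < l := by
    have := orderOf_pos s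
    omega
  have hi1 : s ^ l ≠ 1 := by
    intro h
    have := Nat.le_of_dvd hl0 (orderOf_dvd_of_pow_eq_one h)
    omega
  have hii : s ^ l * s ^ l = 1 := by
    rw [← pow_add, ← two_mul, ← hl, pow_orderOf_eq_one]
  have e1 : fixedBy X z = fixedBy X (s ^ l) := by
    apply Set.eq_of_subset_of_ncard_le _ (hfix _ _ hi1 hii hz1 hzz).le (Set.toFinite _)
    intro p hp
    exact hpow l p (hsz p hp)
  have e2 : fixedBy X (z * t) = fixedBy X (s ^ l) := by
    apply Set.eq_of_subset_of_ncard_le _ (hfix _ _ hi1 hii hzt1 hztt).le (Set.toFinite _)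
    intro p hp
    exact hpow l p (hszt p hp)
  have e3 : fixedBy X z = fixedBy X t := by
    apply Set.eq_of_subset_of_ncard_le _ (hfix _ _ ht1 htt hz1 hzz).le (Set.toFinite _)
    intro p hp
    have h1 : p ∈ fixedBy X (z * t) := by rw [e2, ← e1]; exact hp
    have h2 : z • p = p := hp
    have h3 : (z * t) • p = p := h1
    change t • p = p
    rw [← hcomm, mul_smul, h2] at h3
    exact h3
  apply hzx
  have : x ∈ fixedBy X z := by rw [e3]; exact htx
  exact this

/-- extension property of binary actions -/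
theorem ext_of_bin [Finite X] (hB : Bin G X) (x₀ : X) (y : G) :
    ∃ g : G, g • x₀ = y • x₀ ∧
      ∀ p : X, (∃ k : G, k • x₀ = x₀ ∧ (y * k) • p = p) → g • p = p := by
  classical
  let A := {p : X // ∃ k : G, k • x₀ = x₀ ∧ (y * k) • p = p}
  by_cases he : Nonempty A
  · have hcard : 2 ≤ Nat.card (Option A) := by
      rw [Finite.card_option]
      have : 0 < Nat.card A := Nat.card_pos
      omega
    obtain ⟨g, hg⟩ := hB.fintype (ι := Option A) hcard (fun o => o.elim x₀ Subtype.val)
      (fun o => o.elim (y • x₀) Subtype.val) (by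
        rintro (_ | ⟨p, k, hk, hp⟩) (_ | ⟨p', k', hk', hp'⟩) hne
        · exact absurd rfl hne
        · exact ⟨y * k', by simp only [Option.elim]; rw [mul_smul, hk'], by
            simp only [Option.elim]; exact hp'⟩
        · exact ⟨y * k, by simp only [Option.elim]; exact hp, by
            simp only [Option.elim]; rw [mul_smul, hk]⟩
        · exact ⟨1, one_smul _ _, one_smul _ _⟩)
    exact ⟨g, hg none, fun p hp => hg (some ⟨p, hp⟩)⟩
  · refine ⟨y, rfl, fun p hp => ?_⟩
    exact (he ⟨⟨p, hp⟩⟩).elim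

theorem bin_of_triple (h : ∀ (p q r : X) (a b : G), a ∈ stabilizer G p →
    b ∈ stabilizer G q → b⁻¹ * a ∈ stabilizer G r →
    stabilizer G p ≠ stabilizer G q →
    a ∈ stabilizer G r) : Bin G X := by
  intro n I J hn hp
  let i₀ : Fin n := ⟨0, by omega⟩
  let i₁ : Fin n := ⟨1, by omega⟩
  have h01 : i₀ ≠ i₁ := by
    intro h
    have := congrArg Fin.val h
    simp [i₀, i₁] at this
  by_cases hall : ∀ i, stabilizer G (I i) = stabilizer G (I i₀)
  · obtain ⟨g, hg0, -⟩ := hp i₀ i₁ h01
    refine ⟨g, fun i => ?_⟩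
    by_cases hi : i = i₀
    · rw [hi, hg0]
    · obtain ⟨g', h0, h1⟩ := hp i₀ i (Ne.symm hi)
      have h2 : g⁻¹ * g' ∈ stabilizer G (I i) := by
        rw [hall]
        change (g⁻¹ * g') • I i₀ = I i₀
        rw [mul_smul, h0, ← hg0, inv_smul_smul]
      have h3 : (g⁻¹ * g') • I i = I i := h2
      rw [mul_smul, h1, inv_smul_eq_iff] at h3
      exact h3.symm
  · push Not at hall
    obtain ⟨j, hj⟩ := hall
    have hj0 : i₀ ≠ j := by rintro rfl; exact hj rfl
    obtain ⟨g, hg0, hgj⟩ := hp i₀ j hj0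
    refine ⟨g, fun i => ?_⟩
    by_cases hi : i = i₀
    · rw [hi, hg0]
    by_cases hij : i = j
    · rw [hij, hgj]
    obtain ⟨g', h0, h1⟩ := hp i₀ i (Ne.symm hi)
    obtain ⟨g'', h2, h3⟩ := hp j i (Ne.symm hij)
    have h4 : g⁻¹ * g' ∈ stabilizer G (I i) := by
      apply h (I i₀) (I j) (I i) (g⁻¹ * g') (g⁻¹ * g'') _ _ _ (Ne.symm hj)
      · change (g⁻¹ * g') • I i₀ = I i₀
        rw [mul_smul, h0, ← hg0, inv_smul_smul]
      · change (g⁻¹ * g'') • I j = I j
        rw [mul_smul, h2, ← hgj, inv_smul_smul]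
      · change ((g⁻¹ * g'')⁻¹ * (g⁻¹ * g')) • I i = I i
        rw [mul_smul, inv_smul_eq_iff, mul_smul, mul_smul, h1, h3]
    have h5 : (g⁻¹ * g') • I i = I i := h4
    rw [mul_smul, h1, inv_smul_eq_iff] at h5
    exact h5.symm

end general

section subgroups

variable {G : Type*} [Group G]

/-- extension property of a subgroup -/
def KP (H : Subgroup G) : Prop :=
  ∀ y : G, ∃ g : G, y⁻¹ * g ∈ H ∧ ∀ a k : G, k ∈ H → a⁻¹ * (y * k) * a ∈ H → a⁻¹ * g * a ∈ H

/-- closure under commuting involutions -/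
def CP (H : Subgroup G) : Prop :=
  ∀ t ∈ H, t ≠ 1 → t * t = 1 → ∀ z : G, z * z = 1 → t * z = z * t → z ∈ H

theorem smul_mk_eq_iff {H : Subgroup G} (g a : G) :
    g • (a : G ⧸ H) = (a : G ⧸ H) ↔ a⁻¹ * g * a ∈ H := by
  change ((g * a : G) : G ⧸ H) = _ ↔ _
  rw [eq_comm, QuotientGroup.eq, mul_assoc]

theorem KP_of_bin [Finite G] {H : Subgroup G} (hB : Bin G (G ⧸ H)) : KP H := by
  intro y
  obtain ⟨g, hg, hp⟩ := ext_of_bin hB ((1 : G) : G ⧸ H) y
  refine ⟨g, ?_, fun a k hk hak => ?_⟩
  · change ((g * 1 : G) : G ⧸ H) = ((y * 1 : G) : G ⧸ H) at hg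
    rw [mul_one, mul_one, eq_comm, QuotientGroup.eq] at hg
    exact hg
  · have := hp (a : G ⧸ H) ⟨k, by
      rw [smul_mk_eq_iff]; simpa using hk, (smul_mk_eq_iff _ _).2 hak⟩
    exact (smul_mk_eq_iff _ _).1 this

theorem CP_of_bin [Finite G] {H : Subgroup G}
    (hone : ∀ s s' : G, s ≠ 1 → s * s = 1 → s' ≠ 1 → s' * s' = 1 → ∃ c : G, c * s * c⁻¹ = s')
    (hB : Bin G (G ⧸ H)) : CP H := by
  intro t ht ht1 htt z hzz hc
  by_cases hz1 : z = 1
  · rw [hz1]; exact H.one_mem
  have h1 : t • ((1 : G) : G ⧸ H) = ((1 : G) : G ⧸ H) := by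
    rw [smul_mk_eq_iff]; simpa using ht
  have h2 := invol hone hB ht1 htt hz1 hzz hc h1
  rw [smul_mk_eq_iff] at h2
  simpa using h2

theorem KP.comap {G' : Type*} [Group G'] {H : Subgroup G} (h : KP H) (f : G' →* G)
    (hf : Function.Surjective f) : KP (H.comap f) := by
  intro y
  obtain ⟨g, hg, hp⟩ := h (f y)
  obtain ⟨g, rfl⟩ := hf g
  refine ⟨g, ?_, fun a k hk hak => ?_⟩
  · rw [Subgroup.mem_comap, map_mul, map_inv]; exact hg
  · rw [Subgroup.mem_comap, map_mul, map_mul, map_inv] at hak ⊢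
    rw [map_mul] at hak
    exact hp (f a) (f k) hk hak

theorem CP.comap_equiv {G' : Type*} [Group G'] {H : Subgroup G} (h : CP H) (f : G' ≃* G) :
    CP (H.comap f.toMonoidHom) := by
  intro t ht ht1 htt z hzz hc
  change f z ∈ H
  apply h (f t) ht (fun e => ht1 (by rwa [map_eq_one_iff f f.injective] at e)) (by
    rw [← map_mul, htt, map_one]) (f z) (by rw [← map_mul, hzz, map_one]) (by
    rw [← map_mul, hc, map_mul])

/-- elementary abelian subgroups closed under commuting involutions -/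
theorem bin_of_CP [Finite G] {Z : Subgroup G} (h2 : ∀ x ∈ Z, x * x = 1) (hc : CP Z) :
    Bin G (G ⧸ Z) := by
  have hst : ∀ (g a : G), a ∈ stabilizer G (g : G ⧸ Z) ↔ g⁻¹ * a * g ∈ Z := by
    intro g a
    rw [mem_stabilizer_iff, smul_mk_eq_iff]
  have hconj1 : ∀ g a : G, g⁻¹ * a * g = 1 → a = 1 := by
    intro g a h
    calc a = g * (g⁻¹ * a * g) * g⁻¹ := by group
      _ = 1 := by rw [h]; group
  have hsq : ∀ g a : G, a ∈ stabilizer G (g : G ⧸ Z) → a * a = 1 := by
    intro g a h
    have h1 := h2 _ ((hst g a).1 h)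
    apply hconj1 g
    rw [← h1]; group
  -- commuting elements
  have key : ∀ (g g' a b : G), a ∈ stabilizer G (g : G ⧸ Z) → b ∈ stabilizer G (g' : G ⧸ Z) →
      a ≠ 1 → b ≠ 1 → a * b = b * a → stabilizer G (g' : G ⧸ Z) ≤ stabilizer G (g : G ⧸ Z) := by
    have kc : ∀ (g a b : G), a ∈ stabilizer G (g : G ⧸ Z) → b * b = 1 → a ≠ 1 → a * b = b * a →
        b ∈ stabilizer G (g : G ⧸ Z) := by
      intro g a b ha hb ha1 hab
      rw [hst] at ha ⊢
      have h3 := h2 _ ha
      refine hc _ ha (fun h => ha1 (hconj1 g a h)) h3 _ ?_ ?_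
      · calc g⁻¹ * b * g * (g⁻¹ * b * g) = g⁻¹ * (b * b) * g := by group
          _ = 1 := by rw [hb]; group
      · calc g⁻¹ * a * g * (g⁻¹ * b * g) = g⁻¹ * (a * b) * g := by group
          _ = g⁻¹ * (b * a) * g := by rw [hab]
          _ = _ := by group
    intro g g' a b ha hb ha1 hb1 hab x hx
    have hb' := kc g a b ha (hsq g' b hb) ha1 hab
    have hxx := hsq g' x hx
    have hbb := hsq g' b hb
    have hbx : b * x = x * b := by
      have h3 := hsq g' (b * x) ((stabilizer G (g' : G ⧸ Z)).mul_mem hb hx)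
      calc b * x = b * (b * x * (b * x)) * x⁻¹ * x * x := by
            rw [h3]
            calc b * x = b * 1 * x := by group
              _ = _ := by group
        _ = (b * b) * (x * b) * (x * x) := by group
        _ = x * b := by rw [hbb, hxx, one_mul, mul_one]
    exact kc g b x hb' hxx hb1 hbx
  apply bin_of_triple
  intro p q r a b ha hb hab hpq
  obtain ⟨g, rfl⟩ := QuotientGroup.mk_surjective p
  obtain ⟨g', rfl⟩ := QuotientGroup.mk_surjective q
  obtain ⟨g'', rfl⟩ := QuotientGroup.mk_surjective r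
  by_cases ha1 : a = 1
  · rw [ha1]; exact Subgroup.one_mem _
  by_cases hb1 : b = 1
  · rw [hb1, inv_one, one_mul] at hab
    exact hab
  exfalso
  have haa := hsq _ _ ha
  have hbb := hsq _ _ hb
  have hcc := hsq _ _ hab
  have hainv : a⁻¹ = a := inv_eq_of_mul_eq_one_left haa
  have hbinv : b⁻¹ = b := inv_eq_of_mul_eq_one_left hbb
  have hcomm : a * b = b * a := by
    rw [hbinv] at hcc
    have h3 : (b * a)⁻¹ = b * a := inv_eq_of_mul_eq_one_left hcc
    rw [_root_.mul_inv_rev, hainv, hbinv] at h3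
    exact h3
  apply hpq
  exact le_antisymm (key g' g b a hb ha hb1 ha1 hcomm.symm) (key g g' a b ha hb ha1 hb1 hcomm)

/-- transport -/
def cosetEquiv {G' : Type*} [Group G'] (e : G ≃* G') (H : Subgroup G') :
    G ⧸ H.comap e.toMonoidHom ≃ G' ⧸ H where
  toFun := Quotient.map' e (by
    intro a b h
    rw [QuotientGroup.leftRel_apply] at h ⊢
    rw [← map_inv, ← map_mul]
    exact h)
  invFun := Quotient.map' e.symm (by
    intro a b h
    rw [QuotientGroup.leftRel_apply] at h ⊢
    rw [← map_inv, ← map_mul]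
    change e (e.symm (a⁻¹ * b)) ∈ H
    rw [e.apply_symm_apply]; exact h)
  left_inv := by
    intro x
    obtain ⟨a, rfl⟩ := QuotientGroup.mk_surjective x
    change ((e.symm (e a) : G) : G ⧸ H.comap e.toMonoidHom) = _
    rw [e.symm_apply_apply]
  right_inv := by
    intro x
    obtain ⟨a, rfl⟩ := QuotientGroup.mk_surjective x
    change ((e (e.symm a) : G') : G' ⧸ H) = _
    rw [e.apply_symm_apply]

theorem cosetEquiv_smul {G' : Type*} [Group G'] (e : G ≃* G') (H : Subgroup G') (g : G)
    (x : G ⧸ H.comap e.toMonoidHom) : cosetEquiv e H (g • x) = e g • cosetEquiv e H x := by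
  obtain ⟨a, rfl⟩ := QuotientGroup.mk_surjective x
  change ((e (g * a) : G') : G' ⧸ H) = ((e g * e a : G') : G' ⧸ H)
  rw [map_mul]

theorem bin_equiv {G' : Type*} [Group G'] (e : G ≃* G') (H : Subgroup G') :
    Bin G (G ⧸ H.comap e.toMonoidHom) ↔ Bin G' (G' ⧸ H) := by
  set f := cosetEquiv e H with hf
  have hfs : ∀ (g : G) x, f (g • x) = e g • f x := cosetEquiv_smul e H
  have hfs' : ∀ (g : G) x, f.symm (e g • x) = g • f.symm x := by
    intro g x
    apply f.injective
    rw [hfs, f.apply_symm_apply, f.apply_symm_apply]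
  constructor
  · intro h n I J hn hp
    obtain ⟨g, hg⟩ := h n (f.symm ∘ I) (f.symm ∘ J) hn (by
      intro i j hij
      obtain ⟨g, h1, h2⟩ := hp i j hij
      obtain ⟨g, rfl⟩ := e.surjective g
      refine ⟨g, ?_, ?_⟩
      · simp only [Function.comp_apply]
        rw [← hfs', h1]
      · simp only [Function.comp_apply]
        rw [← hfs', h2])
    refine ⟨e g, fun i => ?_⟩
    apply f.symm.injective
    rw [hfs']
    exact hg i
  · intro h n I J hn hp
    obtain ⟨g, hg⟩ := h n (f ∘ I) (f ∘ J) hn (by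
      intro i j hij
      obtain ⟨g, h1, h2⟩ := hp i j hij
      refine ⟨e g, ?_, ?_⟩
      · simp only [Function.comp_apply]
        rw [← hfs, h1]
      · simp only [Function.comp_apply]
        rw [← hfs, h2])
    obtain ⟨g, rfl⟩ := e.surjective g
    refine ⟨g, fun i => ?_⟩
    apply f.injective
    rw [hfs]
    exact hg i

end subgroups

end Cfsg.Agent.BinInv
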