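import Cfsg.Agent.BinInv.Gen
import Cfsg.Agent.H80.StrongEmb

/-!
# Subgroups closed under commuting involutions give strongly embedded subgroups
-/

set_option autoImplicit false

namespace Cfsg.Agent.BinInv

variable {G : Type*} [Group G]

/-- closed sets of involutions -/
def Cl (C : Set G) : Prop :=
  (∀ c ∈ C, c ≠ 1 ∧ c * c = 1) ∧
    ∀ c ∈ C, ∀ z : G, z ≠ 1 → z * z = 1 → c * z = z * c → z ∈ C

/-- conjugate sets -/
def cjS (g : G) (C : Set G) : Set G := {x | g⁻¹ * x * g ∈ C}

theorem Cl.conj {C : Set G} (h : Cl C) (g : G) : Cl (cjS g C) := by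
  constructor
  · intro c hc
    obtain ⟨h1, h2⟩ := h.1 _ hc
    constructor
    · rintro rfl
      apply h1; group
    · calc c * c = g * (g⁻¹ * c * g * (g⁻¹ * c * g)) * g⁻¹ := by group
        _ = 1 := by rw [h2]; group
  · intro c hc z hz1 hzz hcz
    refine h.2 _ hc _ ?_ ?_ ?_
    · intro e
      apply hz1
      calc z = g * (g⁻¹ * z * g) * g⁻¹ := by group
        _ = 1 := by rw [e]; group
    · calc g⁻¹ * z * g * (g⁻¹ * z * g) = g⁻¹ * (z * z) * g := by group
        _ = 1 := by rw [hzz]; group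
    · calc g⁻¹ * c * g * (g⁻¹ * z * g) = g⁻¹ * (c * z) * g := by group
        _ = g⁻¹ * (z * c) * g := by rw [hcz]
        _ = _ := by group

theorem Cl.inter {C D : Set G} (h : Cl C) (h' : Cl D) : Cl (C ∩ D) :=
  ⟨fun c hc => h.1 c hc.1, fun c hc z h1 h2 h3 => ⟨h.2 c hc.1 z h1 h2 h3, h'.2 c hc.2 z h1 h2 h3⟩⟩

theorem ncard_cjS [Finite G] (g : G) (C : Set G) : (cjS g C).ncard = C.ncard := by
  have : C = (fun x => g⁻¹ * x * g) '' cjS g C := by
    ext x
    constructor
    · intro hx
      refine ⟨g * x * g⁻¹, ?_, ?_⟩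
      · change g⁻¹ * (g * x * g⁻¹) * g ∈ C
        have : g⁻¹ * (g * x * g⁻¹) * g = x := by group
        rwa [this]
      · change g⁻¹ * (g * x * g⁻¹) * g = x
        group
    · rintro ⟨y, hy, rfl⟩
      exact hy
  conv_rhs => rw [this]
  rw [Set.ncard_image_of_injective]
  intro x y hxy
  have hxy : g⁻¹ * x * g = g⁻¹ * y * g := hxy
  exact mul_left_cancel (mul_right_cancel hxy)

theorem two_of_orderOf {t : G} (h : orderOf t = 2) : t ≠ 1 ∧ t * t = 1 := by
  constructor
  · rintro rfl
    rw [orderOf_one] at h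
    omega
  · rw [← pow_two, ← h, pow_orderOf_eq_one]

theorem orderOf_two {t : G} (h1 : t ≠ 1) (h2 : t * t = 1) : orderOf t = 2 :=
  orderOf_eq_prime (by rw [pow_two, h2]) h1

/-- simple groups with a proper subgroup of even order closed under commuting involutions have
a strongly embedded subgroup -/
theorem exists_se [Finite G] [IsSimpleGroup G] {H : Subgroup G} (hH : H ≠ ⊤)
    (he : Even (Nat.card H)) (hc : CP H) : ∃ M : Subgroup G, Cfsg.IsStronglyEmbedded M := by
  have hp : Fact (Nat.Prime 2) := ⟨Nat.prime_two⟩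
  -- the involutions of `H`
  let S : Set (Set G) := {C | C.Nonempty ∧ Cl C ∧ C ⊆ H}
  have hS : S.Nonempty := by
    obtain ⟨t, htH, ht⟩ := Cfsg.Agent.H80.exists_involution_mem he
    obtain ⟨h1, h2⟩ := two_of_orderOf ht
    refine ⟨{x | x ∈ H ∧ x ≠ 1 ∧ x * x = 1}, ⟨t, htH, h1, h2⟩, ⟨fun c hc => hc.2, ?_⟩,
      fun x hx => hx.1⟩
    rintro c ⟨h1, h2, h3⟩ z h4 h5 h6
    exact ⟨hc c h1 h2 h3 z h5 h6, h4, h5⟩
  obtain ⟨C, ⟨hCne, hC, hCH⟩, hmin⟩ := Set.exists_min_image S Set.ncard (Set.toFinite S) hS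
  have hconj : ∀ g : G, (C ∩ cjS g C).Nonempty → cjS g C = C := by
    intro g hg
    have h1 := hmin (C ∩ cjS g C) ⟨hg, hC.inter (hC.conj g), fun x hx => hCH hx.1⟩
    have h2 : C ∩ cjS g C = C := Set.eq_of_subset_of_ncard_le Set.inter_subset_left h1 (Set.toFinite _)
    have h3 : C ⊆ cjS g C := by
      intro x hx
      have hx' : x ∈ C ∩ cjS g C := by rw [h2]; exact hx
      exact hx'.2
    exact (Set.eq_of_subset_of_ncard_le h3 (ncard_cjS g C).le (Set.toFinite _)).symm
  let M : Subgroup G :=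
    { carrier := {g | cjS g C = C}
      one_mem' := by
        change cjS 1 C = C
        ext x
        simp [cjS]
      mul_mem' := by
        intro a b ha hb
        have ha : cjS a C = C := ha
        have hb : cjS b C = C := hb
        change cjS (a * b) C = C
        conv_rhs => rw [← ha, ← hb]
        ext x
        simp only [cjS, Set.mem_ofPred_eq]
        have : (a * b)⁻¹ * x * (a * b) = b⁻¹ * (a⁻¹ * x * a) * b := by group
        rw [this]
      inv_mem' := by
        intro a ha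
        have ha : cjS a C = C := ha
        change cjS a⁻¹ C = C
        conv_lhs => rw [← ha]
        ext x
        simp only [cjS, Set.mem_ofPred_eq]
        have : a⁻¹ * (a⁻¹⁻¹ * x * a⁻¹) * a = x := by group
        rw [this] }
  have hM : ∀ g, g ∈ M ↔ cjS g C = C := fun g => Iff.rfl
  have hCM : ∀ c ∈ C, ∀ g, c * g = g * c → g ∈ M := by
    intro c hc g hg
    rw [hM]
    apply hconj
    refine ⟨c, hc, ?_⟩
    change g⁻¹ * c * g ∈ C
    have : g⁻¹ * c * g = c := by rw [mul_assoc, hg]; group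
    rwa [this]
  have hconjC : ∀ g ∈ M, ∀ c, g⁻¹ * c * g ∈ C ↔ c ∈ C := by
    intro g hg c
    have h1 : c ∈ cjS g C ↔ c ∈ C := by rw [(hM g).1 hg]
    exact h1
  obtain ⟨c₀, hc₀⟩ := hCne
  have hc₀M : c₀ ∈ M := hCM c₀ hc₀ c₀ rfl
  have heM : Even (Nat.card M) :=
    Cfsg.Agent.H80.even_card_of_involution_mem hc₀M (orderOf_two (hC.1 _ hc₀).1 (hC.1 _ hc₀).2)
  -- involutions of `M` lie in `C`
  have hinv : ∀ s ∈ M, s ≠ 1 → s * s = 1 → s ∈ C := by
    intro s hsM hs1 hss
    have hpg : IsPGroup 2 (Subgroup.zpowers (⟨s, hsM⟩ : M)) := by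
      apply IsPGroup.of_card (n := 1)
      rw [pow_one, Nat.card_zpowers]
      apply orderOf_two
      · intro h; exact hs1 (congrArg Subtype.val h)
      · exact Subtype.ext hss
    obtain ⟨T, hT⟩ := hpg.exists_le_sylow
    have hsT : (⟨s, hsM⟩ : M) ∈ T := hT (Subgroup.mem_zpowers _)
    -- a conjugate of `c₀` in `T`
    have hpg2 : IsPGroup 2 (Subgroup.zpowers (⟨c₀, hc₀M⟩ : M)) := by
      apply IsPGroup.of_card (n := 1)
      rw [pow_one, Nat.card_zpowers]
      apply orderOf_two
      · intro h; exact (hC.1 _ hc₀).1 (congrArg Subtype.val h)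
      · exact Subtype.ext (hC.1 _ hc₀).2
    obtain ⟨T', hT'⟩ := hpg2.exists_le_sylow
    have hcT' : (⟨c₀, hc₀M⟩ : M) ∈ T' := hT' (Subgroup.mem_zpowers _)
    obtain ⟨m, hm⟩ := MulAction.exists_smul_eq M T' T
    have hcT : m * ⟨c₀, hc₀M⟩ * m⁻¹ ∈ T := by
      rw [← hm]
      exact ⟨_, hcT', rfl⟩
    -- a central involution of `T`
    have hTne : Nontrivial T := ⟨⟨⟨s, hsM⟩, hsT⟩, 1, fun h => hs1 (by
      have := congrArg (fun x : T => ((x : M) : G)) h
      exact this)⟩
    have hcen : Nontrivial (Subgroup.center T) := T.isPGroup'.center_nontrivial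
    have hcard : 2 ∣ Nat.card (Subgroup.center T) := by
      have h1 : IsPGroup 2 (Subgroup.center T) := T.isPGroup'.to_subgroup _
      obtain ⟨k, hk⟩ := IsPGroup.iff_card.1 h1
      rw [hk]
      have : k ≠ 0 := by
        rintro rfl
        rw [pow_zero] at hk
        have := Finite.one_lt_card_iff_nontrivial.2 hcen
        omega
      exact dvd_pow_self 2 this
    obtain ⟨z, hz⟩ := exists_prime_orderOf_dvd_card' 2 hcard
    obtain ⟨hz1, hz2⟩ := two_of_orderOf hz
    have hzc := Subgroup.mem_center_iff.1 z.2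
    set z' : G := (((z : T) : M) : G) with hz'
    have hz'1 : z' ≠ 1 := by
      intro h
      apply hz1
      apply Subtype.ext; apply Subtype.ext; apply Subtype.ext
      exact h
    have hz'2 : z' * z' = 1 := by
      have := congrArg (fun x : Subgroup.center T => (((x : T) : M) : G)) hz2
      exact this
    have h1 : (m : G) * c₀ * (m : G)⁻¹ ∈ C := by
      have h2 := (hconjC (m : G)⁻¹ (M.inv_mem m.2) c₀).2 hc₀
      rwa [inv_inv] at h2
    have h2 : (m : G) * c₀ * (m : G)⁻¹ * z' = z' * ((m : G) * c₀ * (m : G)⁻¹) := by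
      have := congrArg (fun x : T => ((x : M) : G)) (hzc ⟨_, hcT⟩)
      exact this
    have h3 : z' ∈ C := hC.2 _ h1 z' hz'1 hz'2 h2
    have h4 : s * z' = z' * s := by
      have := congrArg (fun x : T => ((x : M) : G)) (hzc ⟨_, hsT⟩)
      exact this
    exact hC.2 _ h3 s hs1 hss h4.symm
  have hMtop : M ≠ ⊤ := by
    intro htop
    have hn : (Subgroup.closure C).Normal := by
      refine ⟨fun x hx g => ?_⟩
      induction hx using Subgroup.closure_induction with
      | mem x hx =>
        apply Subgroup.subset_closure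
        have := (hconjC g⁻¹ (by rw [htop]; trivial) x).2 hx
        rwa [inv_inv] at this
      | one => rw [mul_one, mul_inv_cancel]; exact Subgroup.one_mem _
      | mul x y _ _ hx hy =>
        have : g * (x * y) * g⁻¹ = (g * x * g⁻¹) * (g * y * g⁻¹) := by group
        rw [this]; exact Subgroup.mul_mem _ hx hy
      | inv x _ hx =>
        have : g * x⁻¹ * g⁻¹ = (g * x * g⁻¹)⁻¹ := by group
        rw [this]; exact Subgroup.inv_mem _ hx
    rcases hn.eq_bot_or_eq_top with h | h
    · have h1 : c₀ ∈ Subgroup.closure C := Subgroup.subset_closure hc₀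
      rw [h, Subgroup.mem_bot] at h1
      exact (hC.1 _ hc₀).1 h1
    · apply hH
      rw [eq_top_iff, ← h]
      exact (Subgroup.closure_le _).2 hCH
  refine ⟨M, (Cfsg.Agent.H80.stronglyEmbedded_iff hMtop heM).2 ?_⟩
  intro t htM ht g hg
  obtain ⟨ht1, htt⟩ := two_of_orderOf ht
  have h1 := hinv t htM ht1 htt
  have h2 : g⁻¹ * t * g ∈ C := by
    apply hinv _ hg
    · intro e
      apply ht1
      calc t = g * (g⁻¹ * t * g) * g⁻¹ := by group
        _ = 1 := by rw [e]; group
    · calc g⁻¹ * t * g * (g⁻¹ * t * g) = g⁻¹ * (t * t) * g := by group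
        _ = 1 := by rw [htt]; group
  rw [hM]
  exact hconj g ⟨t, h1, h2⟩

end Cfsg.Agent.BinInv
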